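import Mathlib
import Cfsg.Agent.Lib.Helper14.DG33.Defs

/-!
# DG33 (S3670), package [ARITH6]

Pure arithmetic on the multiplicities: from `ArithHyp` some degree is divisible by `6`.
-/

set_option autoImplicit false

namespace Cfsg.Agent.Lib.Helper89.DG33

open Cfsg.Agent.Lib.Helper14.DG33

universe u

section aux

variable {ι : Type u} [Fintype ι]

theorem a6_sum_zero (f : ι → ℕ) (h : ∑ χ, f χ = 0) (a : ι) : f a = 0 :=
  (Finset.sum_eq_zero_iff).1 h a (Finset.mem_univ a)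

theorem a6_single_le (f : ι → ℕ) (a : ι) : f a ≤ ∑ χ, f χ :=
  Finset.single_le_sum (fun _ _ => Nat.zero_le _) (Finset.mem_univ a)

theorem a6_pair_le (f : ι → ℕ) {a b : ι} (hab : a ≠ b) : f a + f b ≤ ∑ χ, f χ := by
  classical
  have h1 : ∑ χ ∈ ({a, b} : Finset ι), f χ = f a + f b := Finset.sum_pair hab
  rw [← h1]
  exact Finset.sum_le_sum_of_subset (Finset.subset_univ _)

theorem a6_le_one_of_sq (f : ι → ℕ) (h : ∑ χ, f χ * f χ ≤ 2) (a : ι) : f a ≤ 1 := by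
  have hle := a6_single_le (fun χ => f χ * f χ) a
  by_contra hc0
  have hc : 2 ≤ f a := by omega
  have h4 : 2 * 2 ≤ f a * f a := Nat.mul_le_mul hc hc
  have hle' : f a * f a ≤ 2 := le_trans hle h
  omega

/-- `Σ f² = 1` forces `f` to be the indicator of one point. -/
theorem a6_ind_one (f : ι → ℕ) (h : ∑ χ, f χ * f χ = 1) :
    ∃ a, f a = 1 ∧ ∀ b, b ≠ a → f b = 0 := by
  have hle1 : ∀ a, f a ≤ 1 := a6_le_one_of_sq f (by rw [h]; norm_num)
  have hex : ∃ a, f a ≠ 0 := by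
    by_contra hne0
    have hne : ∀ a, f a = 0 := fun a => by_contra (fun h => hne0 ⟨a, h⟩)
    have h0 : ∑ χ, f χ * f χ = 0 := Finset.sum_eq_zero (fun χ _ => by simp [hne χ])
    omega
  obtain ⟨a, ha⟩ := hex
  have ha1 : f a = 1 := by have := hle1 a; omega
  refine ⟨a, ha1, fun b hb => ?_⟩
  have h2 := a6_pair_le (fun χ => f χ * f χ) hb
  rw [h] at h2
  simp only [ha1] at h2
  have h3 : f b * f b = 0 := by omega
  exact mul_self_eq_zero.1 h3

/-- `Σ f² = 2` forces `f` to be the indicator of two points. -/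
theorem a6_ind_two (f : ι → ℕ) (h : ∑ χ, f χ * f χ = 2) :
    ∃ a b, a ≠ b ∧ f a = 1 ∧ f b = 1 ∧ ∀ c, c ≠ a → c ≠ b → f c = 0 := by
  classical
  have hle1 : ∀ a, f a ≤ 1 := a6_le_one_of_sq f (by rw [h])
  have hex : ∃ a, f a ≠ 0 := by
    by_contra hne0
    have hne : ∀ a, f a = 0 := fun a => by_contra (fun h => hne0 ⟨a, h⟩)
    have h0 : ∑ χ, f χ * f χ = 0 := Finset.sum_eq_zero (fun χ _ => by simp [hne χ])
    omega
  obtain ⟨a, ha⟩ := hex
  have ha1 : f a = 1 := by have := hle1 a; omega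
  have hex2 : ∃ b, b ≠ a ∧ f b ≠ 0 := by
    by_contra hne0
    have hne : ∀ b, b ≠ a → f b = 0 := fun b hb => by_contra (fun h => hne0 ⟨b, hb, h⟩)
    have h0 : ∑ χ, f χ * f χ = f a * f a := by
      apply Finset.sum_eq_single a
      · intro b _ hb
        simp [hne b hb]
      · intro hh
        exact absurd (Finset.mem_univ a) hh
    rw [ha1] at h0
    omega
  obtain ⟨b, hba, hb⟩ := hex2
  have hb1 : f b = 1 := by have := hle1 b; omega
  refine ⟨a, b, fun h => hba h.symm, ha1, hb1, fun c hca hcb => ?_⟩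
  have h3 : ∑ χ ∈ ({a, b, c} : Finset ι), f χ * f χ ≤ ∑ χ, f χ * f χ :=
    Finset.sum_le_sum_of_subset (Finset.subset_univ _)
  rw [Finset.sum_insert (by simp [Ne.symm hba, Ne.symm hca]), Finset.sum_pair (Ne.symm hcb), h,
    ha1, hb1] at h3
  have h4 : f c * f c = 0 := by omega
  exact mul_self_eq_zero.1 h4

theorem a6_sum_one (f g : ι → ℕ) {a : ι} (ha : f a = 1) (h0 : ∀ b, b ≠ a → f b = 0) :
    ∑ χ, f χ * g χ = g a := by
  rw [Finset.sum_eq_single a]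
  · rw [ha, one_mul]
  · intro b _ hb
    rw [h0 b hb, zero_mul]
  · intro hh
    exact absurd (Finset.mem_univ a) hh

theorem a6_sum_two (f g : ι → ℕ) {a b : ι} (hab : a ≠ b) (ha : f a = 1) (hb : f b = 1)
    (h0 : ∀ c, c ≠ a → c ≠ b → f c = 0) :
    ∑ χ, f χ * g χ = g a + g b := by
  classical
  rw [← Finset.sum_subset (Finset.subset_univ ({a, b} : Finset ι))]
  · rw [Finset.sum_pair hab, ha, hb, one_mul, one_mul]
  · intro c _ hc
    simp only [Finset.mem_insert, Finset.mem_singleton, not_or] at hc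
    rw [h0 c hc.1 hc.2, zero_mul]

theorem a6_ind_two_pt (f : ι → ℕ) (h : ∑ χ, f χ * f χ = 2) {p : ι} (hp : f p = 1) :
    ∃ q, q ≠ p ∧ f q = 1 ∧ ∀ c, c ≠ p → c ≠ q → f c = 0 := by
  obtain ⟨a, b, hab, ha, hb, h0⟩ := a6_ind_two f h
  by_cases hpa : p = a
  · subst hpa
    exact ⟨b, fun h => hab h.symm, hb, h0⟩
  · by_cases hpb : p = b
    · subst hpb
      exact ⟨a, hab, ha, fun c hc1 hc2 => h0 c hc2 hc1⟩
    · exact absurd (h0 p hpa hpb) (by rw [hp]; exact one_ne_zero)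

theorem a6_ind_two_x (f x : ι → ℕ) (h : ∑ χ, f χ * f χ = 2) (hx : ∑ χ, f χ * x χ = 1) :
    ∃ a b, a ≠ b ∧ f a = 1 ∧ f b = 1 ∧ (∀ c, c ≠ a → c ≠ b → f c = 0) ∧ x a = 0 ∧ x b = 1 := by
  obtain ⟨a, b, hab, ha, hb, h0⟩ := a6_ind_two f h
  have hs := a6_sum_two f x hab ha hb h0
  rw [hx] at hs
  rcases Nat.eq_zero_or_pos (x a) with h1 | h1
  · exact ⟨a, b, hab, ha, hb, h0, h1, by omega⟩
  · exact ⟨b, a, hab.symm, hb, ha, fun c hc1 hc2 => h0 c hc2 hc1, by omega, by omega⟩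

theorem a6_two_zero {a b : ℕ} (ha : a ≤ 1) (hb : b ≤ 1) (h : a * b = 0) : a + b ≤ 1 := by
  rcases mul_eq_zero.1 h with h | h <;> omega

end aux

/-- [ARITH6] -/
theorem pkgArith6 : PkgArith6.{u} := by
  intro ι _ d c x m χ₀ H
  by_contra hno0
  have hno : ∀ χ, ¬ 6 ∣ d χ := fun χ h => hno0 ⟨χ, h⟩
  obtain ⟨A1, A2, A3, A4, A5, A6, A7, A7u, A8, A9⟩ := H
  obtain ⟨hdχ₀, hc0χ₀, hcjχ₀, hxχ₀⟩ := A7
  -- orthogonality
  have o : ∀ i j, i < 8 → j < 8 → i ≠ j → i ≠ (5 * j) % 8 → ∀ χ, c i χ * c j χ = 0 := by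
    intro i j hi hj hij hij' χ
    have h := A2 i j hi hj
    rw [if_neg hij, if_neg hij'] at h
    exact a6_sum_zero _ h χ
  have cz : ∀ i j, i < 8 → j < 8 → i ≠ j → i ≠ (5 * j) % 8 → ∀ χ, c j χ = 1 → c i χ = 0 := by
    intro i j hi hj h1 h2 χ h
    have := o i j hi hj h1 h2 χ
    rw [h, mul_one] at this
    exact this
  have hsum8 : ∀ χ, ∑ j ∈ Finset.range 8, c j χ =
      c 0 χ + c 1 χ + c 2 χ + c 3 χ + c 4 χ + c 5 χ + c 6 χ + c 7 χ := by
    intro χ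
    simp [Finset.sum_range_succ]
  -- squares
  have h00 : ∑ χ, c 0 χ * c 0 χ = 2 := by
    have := A2 0 0 (by norm_num) (by norm_num)
    simpa using this
  have h22 : ∑ χ, c 2 χ * c 2 χ = 2 := by
    have := A2 2 2 (by norm_num) (by norm_num)
    simpa using this
  have h44 : ∑ χ, c 4 χ * c 4 χ = 2 := by
    have := A2 4 4 (by norm_num) (by norm_num)
    simpa using this
  have h66 : ∑ χ, c 6 χ * c 6 χ = 2 := by
    have := A2 6 6 (by norm_num) (by norm_num)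
    simpa using this
  have h11 : ∑ χ, c 1 χ * c 1 χ = 1 := by
    have := A2 1 1 (by norm_num) (by norm_num)
    simpa using this
  have h33 : ∑ χ, c 3 χ * c 3 χ = 1 := by
    have := A2 3 3 (by norm_num) (by norm_num)
    simpa using this
  have h55 : ∑ χ, c 5 χ * c 5 χ = 1 := by
    have := A2 5 5 (by norm_num) (by norm_num)
    simpa using this
  have h77 : ∑ χ, c 7 χ * c 7 χ = 1 := by
    have := A2 7 7 (by norm_num) (by norm_num)
    simpa using this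
  have h15 : ∑ χ, c 1 χ * c 5 χ = 1 := by
    have := A2 1 5 (by norm_num) (by norm_num)
    simpa using this
  have h37 : ∑ χ, c 3 χ * c 7 χ = 1 := by
    have := A2 3 7 (by norm_num) (by norm_num)
    simpa using this
  -- the points
  obtain ⟨σ₁, hσ₁, hσ₁0⟩ := a6_ind_one (c 1) h11
  obtain ⟨σ₃, hσ₃, hσ₃0⟩ := a6_ind_one (c 3) h33
  have c5 : ∀ χ, c 5 χ = c 1 χ := by
    have e1 := a6_sum_one (c 1) (c 5) hσ₁ hσ₁0
    rw [h15] at e1
    obtain ⟨σ₅, hσ₅, hσ₅0⟩ := a6_ind_one (c 5) h55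
    have hs : σ₅ = σ₁ := by
      by_contra hne
      have := hσ₅0 σ₁ (Ne.symm hne)
      omega
    subst hs
    intro χ
    by_cases hχ : χ = σ₅
    · rw [hχ, hσ₅, hσ₁]
    · rw [hσ₅0 χ hχ, hσ₁0 χ hχ]
  have c7 : ∀ χ, c 7 χ = c 3 χ := by
    have e1 := a6_sum_one (c 3) (c 7) hσ₃ hσ₃0
    rw [h37] at e1
    obtain ⟨σ₇, hσ₇, hσ₇0⟩ := a6_ind_one (c 7) h77
    have hs : σ₇ = σ₃ := by
      by_contra hne
      have := hσ₇0 σ₃ (Ne.symm hne)
      omega
    subst hs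
    intro χ
    by_cases hχ : χ = σ₇
    · rw [hχ, hσ₇, hσ₃]
    · rw [hσ₇0 χ hχ, hσ₃0 χ hχ]
  obtain ⟨St, hStne, hSt, hSt0⟩ := a6_ind_two_pt (c 0) h00 hc0χ₀
  obtain ⟨α₂, β₂, hne2, hα₂, hβ₂, h20, hxα₂, hxβ₂⟩ :=
    a6_ind_two_x (c 2) x h22 (A3 2 (by norm_num))
  obtain ⟨α₄, β₄, hne4, hα₄, hβ₄, h40, hxα₄, hxβ₄⟩ :=
    a6_ind_two_x (c 4) x h44 (A3 4 (by norm_num))
  obtain ⟨α₆, β₆, hne6, hα₆, hβ₆, h60, hxα₆, hxβ₆⟩ :=
    a6_ind_two_x (c 6) x h66 (A3 6 (by norm_num))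
  -- values of x
  have hxSt : x St = 1 := by
    have e := a6_sum_two (c 0) x (Ne.symm hStne) hc0χ₀ hSt hSt0
    rw [A3 0 (by norm_num), hxχ₀] at e
    omega
  have hxσ₁ : x σ₁ = 1 := by
    have e := a6_sum_one (c 1) x hσ₁ hσ₁0
    rw [A3 1 (by norm_num)] at e
    exact e.symm
  have hxσ₃ : x σ₃ = 1 := by
    have e := a6_sum_one (c 3) x hσ₃ hσ₃0
    rw [A3 3 (by norm_num)] at e
    exact e.symm
  -- values of d
  have hdSt : d St = 27 := by
    have e := a6_sum_two (c 0) d (Ne.symm hStne) hc0χ₀ hSt hSt0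
    rw [A8 0 (by norm_num), hdχ₀] at e
    omega
  have hdσ₁ : d σ₁ = 28 := by
    have e := a6_sum_one (c 1) d hσ₁ hσ₁0
    rw [A8 1 (by norm_num)] at e
    exact e.symm
  have hdσ₃ : d σ₃ = 28 := by
    have e := a6_sum_one (c 3) d hσ₃ hσ₃0
    rw [A8 3 (by norm_num)] at e
    exact e.symm
  have sum_even : ∀ j, j < 8 → j = 5 * j % 8 → ∀ χ, c j χ = 1 →
      ∑ i ∈ Finset.range 8, c i χ = 1 := by
    intro j hj h5 χ h
    rw [Finset.sum_eq_single j, h]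
    · intro i hi hij
      exact cz i j (Finset.mem_range.1 hi) hj hij (by rw [← h5]; exact hij) χ h
    · intro hn
      exact absurd (Finset.mem_range.2 hj) hn
  have key : ∀ j, j < 8 → 0 < j → j = 5 * j % 8 → ∀ α β, c j α = 1 → c j β = 1 →
      x α = 0 → x β = 1 → d α + d β = 28 → d α = 7 ∧ d β = 21 := by
    intro j hj hj0 h5 α β hα hβ hxα hxβ hsum
    have eα := A1 α
    have eβ := A1 β
    rw [sum_even j hj h5 α hα, hxα] at eα
    rw [sum_even j hj h5 β hβ, hxβ] at eβ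
    have hdiv := (A6 α).2
    obtain h | h | h | h : m α = 0 ∨ m α = 1 ∨ m α = 2 ∨ m α = 3 := by omega
    · have hd1 : d α = 1 := by omega
      have hαχ := A7u α hd1
      rw [hαχ, hcjχ₀ j hj0 hj] at hα
      omega
    · constructor <;> omega
    · have hd13 : d α = 13 := by omega
      rw [hd13] at hdiv
      exact absurd hdiv (by decide)
    · have hd19 : d α = 19 := by omega
      rw [hd19] at hdiv
      exact absurd hdiv (by decide)
  obtain ⟨hdα₂, hdβ₂⟩ := key 2 (by norm_num) (by norm_num) (by norm_num) α₂ β₂ hα₂ hβ₂ hxα₂ hxβ₂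
    (by
      have e := a6_sum_two (c 2) d hne2 hα₂ hβ₂ h20
      rw [A8 2 (by norm_num)] at e
      exact e.symm)
  obtain ⟨hdα₄, hdβ₄⟩ := key 4 (by norm_num) (by norm_num) (by norm_num) α₄ β₄ hα₄ hβ₄ hxα₄ hxβ₄
    (by
      have e := a6_sum_two (c 4) d hne4 hα₄ hβ₄ h40
      rw [A8 4 (by norm_num)] at e
      exact e.symm)
  obtain ⟨hdα₆, hdβ₆⟩ := key 6 (by norm_num) (by norm_num) (by norm_num) α₆ β₆ hα₆ hβ₆ hxα₆ hxβ₆
    (by
      have e := a6_sum_two (c 6) d hne6 hα₆ hβ₆ h60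
      rw [A8 6 (by norm_num)] at e
      exact e.symm)
  -- the indicator of the complement
  have b0 : ∀ χ, c 0 χ ≤ 1 := a6_le_one_of_sq (c 0) (by rw [h00])
  have b1 : ∀ χ, c 1 χ ≤ 1 := a6_le_one_of_sq (c 1) (by rw [h11]; norm_num)
  have b2 : ∀ χ, c 2 χ ≤ 1 := a6_le_one_of_sq (c 2) (by rw [h22])
  have b3 : ∀ χ, c 3 χ ≤ 1 := a6_le_one_of_sq (c 3) (by rw [h33]; norm_num)
  have b4 : ∀ χ, c 4 χ ≤ 1 := a6_le_one_of_sq (c 4) (by rw [h44])
  have b6 : ∀ χ, c 6 χ ≤ 1 := a6_le_one_of_sq (c 6) (by rw [h66])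
  have e_le : ∀ χ, c 0 χ + c 1 χ + c 2 χ + c 3 χ + c 4 χ + c 6 χ ≤ 1 := by
    intro χ
    have p01 := o 0 1 (by norm_num) (by norm_num) (by decide) (by decide) χ
    have p02 := o 0 2 (by norm_num) (by norm_num) (by decide) (by decide) χ
    have p03 := o 0 3 (by norm_num) (by norm_num) (by decide) (by decide) χ
    have p04 := o 0 4 (by norm_num) (by norm_num) (by decide) (by decide) χ
    have p06 := o 0 6 (by norm_num) (by norm_num) (by decide) (by decide) χ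
    have p12 := o 1 2 (by norm_num) (by norm_num) (by decide) (by decide) χ
    have p13 := o 1 3 (by norm_num) (by norm_num) (by decide) (by decide) χ
    have p14 := o 1 4 (by norm_num) (by norm_num) (by decide) (by decide) χ
    have p16 := o 1 6 (by norm_num) (by norm_num) (by decide) (by decide) χ
    have p23 := o 2 3 (by norm_num) (by norm_num) (by decide) (by decide) χ
    have p24 := o 2 4 (by norm_num) (by norm_num) (by decide) (by decide) χ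
    have p26 := o 2 6 (by norm_num) (by norm_num) (by decide) (by decide) χ
    have p34 := o 3 4 (by norm_num) (by norm_num) (by decide) (by decide) χ
    have p36 := o 3 6 (by norm_num) (by norm_num) (by decide) (by decide) χ
    have p46 := o 4 6 (by norm_num) (by norm_num) (by decide) (by decide) χ
    have s1 : c 0 χ + c 1 χ ≤ 1 := a6_two_zero (b0 χ) (b1 χ) p01
    have s2 : c 0 χ + c 1 χ + c 2 χ ≤ 1 :=
      a6_two_zero s1 (b2 χ) (by simp only [add_mul, p02, p12])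
    have s3 : c 0 χ + c 1 χ + c 2 χ + c 3 χ ≤ 1 :=
      a6_two_zero s2 (b3 χ) (by simp only [add_mul, p03, p13, p23])
    have s4 : c 0 χ + c 1 χ + c 2 χ + c 3 χ + c 4 χ ≤ 1 :=
      a6_two_zero s3 (b4 χ) (by simp only [add_mul, p04, p14, p24, p34])
    exact a6_two_zero s4 (b6 χ) (by simp only [add_mul, p06, p16, p26, p36, p46])
  obtain ⟨w, hw⟩ : ∃ w : ι → ℕ, ∀ χ, w χ = 1 - (c 0 χ + c 1 χ + c 2 χ + c 3 χ + c 4 χ + c 6 χ) :=
    ⟨fun χ => 1 - (c 0 χ + c 1 χ + c 2 χ + c 3 χ + c 4 χ + c 6 χ), fun _ => rfl⟩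
  have hu : ∀ χ, w χ + (c 0 χ + c 1 χ + c 2 χ + c 3 χ + c 4 χ + c 6 χ) = 1 := by
    intro χ
    have := e_le χ
    have := hw χ
    omega
  have dec : ∀ F : ι → ℕ, ∑ χ, F χ = ∑ χ, w χ * F χ + (F χ₀ + F St) + F σ₁ + (F α₂ + F β₂)
      + F σ₃ + (F α₄ + F β₄) + (F α₆ + F β₆) := by
    intro F
    rw [← a6_sum_two (c 0) F (Ne.symm hStne) hc0χ₀ hSt hSt0, ← a6_sum_one (c 1) F hσ₁ hσ₁0,
      ← a6_sum_two (c 2) F hne2 hα₂ hβ₂ h20, ← a6_sum_one (c 3) F hσ₃ hσ₃0,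
      ← a6_sum_two (c 4) F hne4 hα₄ hβ₄ h40, ← a6_sum_two (c 6) F hne6 hα₆ hβ₆ h60]
    simp only [← Finset.sum_add_distrib]
    refine Finset.sum_congr rfl (fun χ _ => ?_)
    have h1 := hu χ
    calc F χ = (w χ + (c 0 χ + c 1 χ + c 2 χ + c 3 χ + c 4 χ + c 6 χ)) * F χ := by
          rw [h1, one_mul]
      _ = _ := by ring
  -- the three sums over the complement
  have S1 : ∑ χ, w χ * (x χ * x χ) = 3 := by
    have e := dec (fun χ => x χ * x χ)
    have e4 : ∑ χ, x χ * x χ = 9 := by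
      rw [← A4]
      exact Finset.sum_congr rfl (fun χ _ => (sq (x χ)).symm)
    rw [e4, hxχ₀, hxSt, hxσ₁, hxσ₃, hxα₂, hxβ₂, hxα₄, hxβ₄, hxα₆, hxβ₆] at e
    omega
  have S2 : ∑ χ, w χ * (x χ * d χ) = 78 := by
    have e := dec (fun χ => x χ * d χ)
    rw [A9, hxχ₀, hxSt, hxσ₁, hxσ₃, hxα₂, hxβ₂, hxα₄, hxβ₄, hxα₆, hxβ₆, hdχ₀, hdSt, hdσ₁, hdσ₃,
      hdα₂, hdβ₂, hdα₄, hdβ₄, hdα₆, hdβ₆] at e
    omega
  have S3 : ∑ χ, w χ * (d χ * d χ) = 2280 := by
    have e := dec (fun χ => d χ * d χ)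
    have e5 : ∑ χ, d χ * d χ = 6048 := by
      rw [← A5]
      exact Finset.sum_congr rfl (fun χ _ => (sq (d χ)).symm)
    rw [e5, hdχ₀, hdSt, hdσ₁, hdσ₃, hdα₂, hdβ₂, hdα₄, hdβ₄, hdα₆, hdβ₆] at e
    omega
  -- pointwise structure on the complement
  have hpt : ∀ χ, w χ = 0 ∨ (w χ = 1 ∧ x χ = 1 ∧ d χ = 8 + 6 * m χ) := by
    intro χ
    have h1 := hu χ
    rcases Nat.eq_zero_or_pos (w χ) with h0 | h0
    · exact Or.inl h0
    · right
      have hw1 : w χ = 1 := by omega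
      have e := A1 χ
      rw [hsum8 χ, c5 χ, c7 χ] at e
      have hd : d χ = 8 * x χ + 6 * m χ := by omega
      have hx0 : x χ ≠ 0 := by
        intro hx
        apply hno χ
        rw [hd, hx]
        exact ⟨m χ, by ring⟩
      have hle := a6_single_le (fun χ => w χ * (x χ * x χ)) χ
      rw [S1] at hle
      simp only [hw1, one_mul] at hle
      have hx1 : x χ ≤ 1 := by
        by_contra hc0
        have hc : 2 ≤ x χ := by omega
        have : 2 * 2 ≤ x χ * x χ := Nat.mul_le_mul hc hc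
        omega
      have hx : x χ = 1 := by omega
      refine ⟨hw1, hx, ?_⟩
      rw [hd, hx]
  have T1 : ∑ χ, w χ = 3 := by
    rw [← S1]
    refine Finset.sum_congr rfl (fun χ _ => ?_)
    rcases hpt χ with h | ⟨h1, h2, _⟩
    · rw [h, zero_mul]
    · rw [h1, h2]
  have T2 : ∑ χ, w χ * (x χ * d χ) = 8 * ∑ χ, w χ + 6 * ∑ χ, w χ * m χ := by
    rw [Finset.mul_sum, Finset.mul_sum, ← Finset.sum_add_distrib]
    refine Finset.sum_congr rfl (fun χ _ => ?_)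
    rcases hpt χ with h | ⟨h1, h2, h3⟩
    · rw [h]; simp
    · rw [h1, h2, h3]; ring
  have T3 : ∑ χ, w χ * (d χ * d χ) =
      64 * ∑ χ, w χ + 96 * ∑ χ, w χ * m χ + 36 * ∑ χ, w χ * (m χ * m χ) := by
    rw [Finset.mul_sum, Finset.mul_sum, Finset.mul_sum, ← Finset.sum_add_distrib,
      ← Finset.sum_add_distrib]
    refine Finset.sum_congr rfl (fun χ _ => ?_)
    rcases hpt χ with h | ⟨h1, _, h3⟩
    · rw [h]; simp
    · rw [h1, h3]; ring
  have P : 2 ∣ ∑ χ, (w χ * (m χ * m χ) + w χ * m χ) := by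
    refine Finset.dvd_sum (fun χ _ => ?_)
    have h2 : 2 ∣ m χ * (m χ + 1) := (Nat.even_mul_succ_self (m χ)).two_dvd
    have e : w χ * (m χ * m χ) + w χ * m χ = w χ * (m χ * (m χ + 1)) := by ring
    rw [e]
    exact Dvd.dvd.mul_left h2 _
  rw [Finset.sum_add_distrib] at P
  rw [S2, T1] at T2
  rw [S3, T1] at T3
  omega

end Cfsg.Agent.Lib.Helper89.DG33
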